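import Cfsg.Agent.H111.SpModel

/-!
# The concrete symplectic group satisfies the hypotheses; matrix coefficients (helper111, cluster S2284-S2297)
-/

set_option autoImplicit false

namespace Cfsg.Agent.H111

open Equiv
open Matrix (SpecialLinearGroup)

section Conc

variable {n : ℕ} {F : Type*} [Field F]

theorem h01 {n : ℕ} : (0 : Fin (n + 2)) ≠ 1 := by simp

theorem cE_zero_left {i j : Fin (n + 2)} (hij : i ≠ j) (w : Fin 2 → F) : cE hij 0 w = 1 := by
  ext1 x; funext k
  simp [cE_apply, fE]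

theorem cE_zero_right {i j : Fin (n + 2)} (hij : i ≠ j) (v : Fin 2 → F) : cE hij v 0 = 1 := by
  ext1 x; funext k
  simp [cE_apply, fE]

variable (n F) in
/-- The concrete data. -/
def cpre : Pre n F (SpV n F) where
  S := 
    { toFun := fun π => ⟨cS π, om_cS π⟩
      map_one' := Subtype.ext cS_one
      map_mul' := fun π σ => Subtype.ext (cS_mul π σ) }
  l :=
    { toFun := fun g => ⟨cL 0 g, om_cL 0 g⟩
      map_one' := Subtype.ext (cL_one 0)
      map_mul' := fun g h => Subtype.ext (cL_mul 0 g h) }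
  y := ⟨cE h01 ve ve, om_cE h01 ve ve⟩

@[simp] theorem cpre_S (π : Perm (Fin (n + 2))) : (((cpre n F).S π : SpV n F) : VV n F ≃ₗ[F] VV n F) = cS π := rfl
theorem cpre_l (g : SpecialLinearGroup (Fin 2) F) : (((cpre n F).l g : SpV n F) : VV n F ≃ₗ[F] VV n F) = cL 0 g := rfl
theorem cpre_y : (((cpre n F).y : SpV n F) : VV n F ≃ₗ[F] VV n F) = cE h01 ve ve := rfl

@[simp] theorem cpre_L (i : Fin (n + 2)) (g : SpecialLinearGroup (Fin 2) F) :
    (((cpre n F).L i g : SpV n F) : VV n F ≃ₗ[F] VV n F) = cL i g := by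
  rw [Pre.L_apply, Subgroup.coe_mul, Subgroup.coe_mul, Subgroup.coe_inv, cpre_S, cpre_l, cS_cL, swap_apply_left,
    mul_inv_cancel_right]

theorem com_of_val {x y : SpV n F} (h : (x : VV n F ≃ₗ[F] VV n F) * y = y * x) : Commute x y :=
  Subtype.ext h

theorem cpre_sys1 : (cpre n F).Sys1 where
  comS π hπ g := com_of_val (by
    rw [cpre_S, cpre_l, cS_cL, hπ])
  comL g h := com_of_val (by
    rw [cpre_L, cpre_L, cL_cL h01])
  yS π h0 h1 := com_of_val (by
    have h : π 0 ≠ π 1 := π.injective.ne h01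
    rw [cpre_S, cpre_y, cS_cE π h01 _ _ h]
    congr 1
    generalize_proofs
    revert h
    rw [h0, h1]
    intro h
    rfl)
  yS01 := com_of_val (by
    have h : swap (0 : Fin (n + 2)) 1 0 ≠ swap (0 : Fin (n + 2)) 1 1 := (swap 0 1).injective.ne h01
    rw [cpre_S, cpre_y, cS_cE _ h01 _ _ h]
    congr 1
    rw [cE_symm h01]
    generalize_proofs
    revert h
    rw [swap_apply_left, swap_apply_right]
    intro h
    rfl)
  yL j h0 h1 g := com_of_val (by
    rw [cpre_L, cpre_y, cL_cE_other h01 h0 h1])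
  yh a := by
    have h : (cpre n F).L 0 (hd a) * (cpre n F).y * ((cpre n F).L 0 (hd a))⁻¹ =
        (cpre n F).L 1 (hd a) * (cpre n F).y * ((cpre n F).L 1 (hd a))⁻¹ := by
      apply Subtype.ext
      simp only [Subgroup.coe_mul, Subgroup.coe_inv, cpre_L, cpre_y]
      rw [cL_cE_left h01, cL_cE_right h01, mul_inv_cancel_right, mul_inv_cancel_right, ac_hd_ve, cE_smul]
    have hc : Commute ((cpre n F).L 0 (hd a)) ((cpre n F).L 1 (hd a)) := com_of_val (by
      rw [cpre_L, cpre_L, cL_cL h01])
    rw [Commute, SemiconjBy]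
    have e : (cpre n F).L 0 (hd a) * ((cpre n F).L 1 (hd a))⁻¹ = ((cpre n F).L 1 (hd a))⁻¹ * (cpre n F).L 0 (hd a) :=
      hc.inv_right.eq
    calc (cpre n F).L 0 (hd a) * ((cpre n F).L 1 (hd a))⁻¹ * (cpre n F).y
        = ((cpre n F).L 1 (hd a))⁻¹ * ((cpre n F).L 0 (hd a) * (cpre n F).y * ((cpre n F).L 0 (hd a))⁻¹) *
            (cpre n F).L 0 (hd a) := by rw [e]; group
      _ = (cpre n F).y * (((cpre n F).L 1 (hd a))⁻¹ * (cpre n F).L 0 (hd a)) := by rw [h]; group
      _ = _ := by rw [← e]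
  yt s := com_of_val (by
    rw [cpre_L, cpre_y, cL_cE_left h01, ac_tv_self])

theorem cE_congr {i j i' j' : Fin (n + 2)} (hi : i = i') (hj : j = j') (h : i ≠ j) (h' : i' ≠ j') (v w : Fin 2 → F) :
    cE h v w = cE h' v w := by
  subst hi; subst hj; rfl

theorem cpre_Y (π : Perm (Fin (n + 2))) (g h : SpecialLinearGroup (Fin 2) F) :
    (((cpre n F).Y π g h : SpV n F) : VV n F ≃ₗ[F] VV n F) = cE (π.injective.ne h01) (ac g ve) (ac h ve) := by
  rw [Pre.Y]
  have e : (((cpre n F).z π g h : SpV n F) : VV n F ≃ₗ[F] VV n F) * cE h01 ve ve =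
      cE (π.injective.ne h01) (ac g ve) (ac h ve) * (((cpre n F).z π g h : SpV n F) : VV n F ≃ₗ[F] VV n F) := by
    rw [Pre.z, Subgroup.coe_mul, Subgroup.coe_mul, cpre_S, cpre_L, cpre_L]
    calc cS π * (cL 0 g * cL 1 h) * cE h01 ve ve = cS π * (cL 0 g * (cL 1 h * cE h01 ve ve)) := by
          simp only [mul_assoc]
      _ = cS π * ((cL 0 g * cE h01 ve (ac h ve)) * cL 1 h) := by rw [cL_cE_right]; simp only [mul_assoc]
      _ = (cS π * cE h01 (ac g ve) (ac h ve)) * (cL 0 g * cL 1 h) := by rw [cL_cE_left]; simp only [mul_assoc]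
      _ = _ := by rw [cS_cE π h01 _ _ (π.injective.ne h01)]; simp only [mul_assoc]
  rw [Subgroup.coe_mul, Subgroup.coe_mul, Subgroup.coe_inv, cpre_y, e, mul_inv_cancel_right]

@[simp] theorem cpre_E {i j : Fin (n + 2)} (hij : i ≠ j) (v w : Fin 2 → F) :
    (((cpre n F).E i j v w : SpV n F) : VV n F ≃ₗ[F] VV n F) = cE hij v w := by
  have := cpre_sys1.E_cases (A := cpre n F) (fun i j v w x => ∀ hij : i ≠ j,
    ((x : SpV n F) : VV n F ≃ₗ[F] VV n F) = cE hij v w) (by
      intro i j w _ hij
      rw [cE_zero_left]; rfl) (by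
      intro i j w _ hij
      rw [cE_zero_right]; rfl) (by
      intro π g h hij
      rw [cpre_Y]) hij v w
  exact this hij

theorem cpre_sys2 {ζ : F} (hζ0 : ζ ≠ 0) (hζ : ∀ a : F, a ≠ 0 → ∃ b : F, b ≠ 0 ∧ (a = b * b * 1 ∨ a = b * b * ζ)) :
    (cpre n F).Sys2 ζ where
  toSys1 := cpre_sys1
  hζ0 := hζ0
  hζ := hζ
  add1 c _ := by
    apply Subtype.ext
    simp only [Subgroup.coe_mul, cpre_L]
    rw [cpre_E h01, cpre_E h01, cpre_E h01, cE_add, dd_smul_left, dd_vf_ve, mul_neg, mul_one]
  com1 j h0 h1 := by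
    apply com_of_val
    rw [cpre_E h01, cpre_E (Ne.symm h0), cE_comm3 h01 (Ne.symm h0) (Ne.symm h1), dd_self, zero_smul, cE_zero_left,
      mul_one]
  com2 j h0 h1 := by
    apply Subtype.ext
    simp only [Subgroup.coe_mul, Subgroup.coe_inv]
    rw [cpre_E h01, cpre_E (Ne.symm h0), cpre_E (Ne.symm h1), cE_comm3 h01 (Ne.symm h0) (Ne.symm h1), dd_vf_ve,
      mul_inv_cancel_right, neg_smul, one_smul]
  com3 j k h0 h1 h2 h3 h4 := by
    apply com_of_val
    rw [cpre_E h01, cpre_E h4, cE_comm4 h01 (Ne.symm h0) (Ne.symm h1) (Ne.symm h2) (Ne.symm h3) h4]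
  sw := by
    apply Subtype.ext
    simp only [Subgroup.coe_mul, cpre_L, cpre_S]
    rw [cpre_E h01, cpre_E h01, cS_swap h01]

/-! ### Coefficients -/

/-- basis vectors -/
def eb (b : Sg n) : VV n F := Pi.single b.1 (bs b.2)

/-- coordinates -/
def co (a : Sg n) (x : VV n F) : F := x a.1 (if a.2 then 0 else 1)

/-- sign -/
def sg {F : Type*} [Field F] {n : ℕ} (c : Sg n) : F := if c.2 then -1 else 1

theorem sg_ne {F : Type*} [Field F] {n : ℕ} (c : Sg n) : (sg c : F) ≠ 0 := by
  rw [sg]; split_ifs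
  · exact neg_ne_zero.2 one_ne_zero
  · exact one_ne_zero

theorem bs_coord (s t : Bool) : (bs s : Fin 2 → F) (if t then 0 else 1) = if t = s then 1 else 0 := by
  cases s <;> cases t <;> simp

theorem co_add (a : Sg n) (x y : VV n F) : co a (x + y) = co a x + co a y := rfl
theorem co_smul (a : Sg n) (c : F) (x : VV n F) : co a (c • x) = c * co a x := rfl

theorem co_eb (a b : Sg n) : co a (eb b : VV n F) = if a = b then 1 else 0 := by
  obtain ⟨i, s⟩ := a
  obtain ⟨j, t⟩ := b
  simp only [co, eb]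
  by_cases h : i = j
  · subst h
    rw [Pi.single_eq_same, bs_coord]
    simp
  · rw [Pi.single_eq_of_ne h, if_neg (show ¬ ((i, s) : Sg n) = (j, t) by simp [h])]
    rfl

theorem sum_co (x : VV n F) : ∑ b : Sg n, co b x • (eb b : VV n F) = x := by
  funext i
  rw [Finset.sum_apply, Fintype.sum_prod_type]
  have : ∀ j : Fin (n + 2), ∑ s : Bool, (co (j, s) x • (eb (j, s) : VV n F)) i = if j = i then x j else 0 := by
    intro j
    rw [Fintype.sum_bool]
    simp only [co, eb, Pi.smul_apply]
    by_cases h : j = i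
    · subst h
      rw [Pi.single_eq_same, Pi.single_eq_same, if_pos rfl]
      apply ext2 <;> simp
    · rw [Pi.single_eq_of_ne (Ne.symm h), Pi.single_eq_of_ne (Ne.symm h), if_neg h]
      simp
  simp only [this]
  rw [Finset.sum_ite_eq' Finset.univ i]
  simp

/-- matrix coefficients -/
def coef (g : SpV n F) (a b : Sg n) : F := co a (g.1 (eb b))

theorem co_apply (g : SpV n F) (a : Sg n) (x : VV n F) : co a (g.1 x) = ∑ c, coef g a c * co c x := by
  conv_lhs => rw [← sum_co x, map_sum]
  have : ∀ (s : Finset (Sg n)) (f : Sg n → VV n F), co a (∑ c ∈ s, f c) = ∑ c ∈ s, co a (f c) := by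
    intro s f
    simp only [co, Finset.sum_apply]
  rw [this]
  refine Finset.sum_congr rfl fun c _ => ?_
  rw [map_smul, co_smul, coef, mul_comm]

theorem coef_mul (g h : SpV n F) (a b : Sg n) : coef (g * h) a b = ∑ c, coef g a c * coef h c b := by
  rw [coef, Subgroup.coe_mul, LinearEquiv.mul_apply, co_apply]
  rfl

theorem coef_one (a b : Sg n) : coef (1 : SpV n F) a b = if a = b then 1 else 0 := co_eb a b

variable (n F) in
/-- lower triangular -/
def W0 : Submonoid (SpV n F) where
  carrier := {g | ∀ a b, coef g a b ≠ 0 → hs b ≤ hs a}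
  one_mem' := by
    intro a b h
    rw [coef_one] at h
    split_ifs at h with h1
    · rw [h1]
    · exact absurd rfl h
  mul_mem' := by
    intro g h hg hh a b hab
    rw [coef_mul] at hab
    obtain ⟨c, _, hc⟩ := Finset.exists_ne_zero_of_sum_ne_zero hab
    exact (hh c b (right_ne_zero_of_mul hc)).trans (hg a c (left_ne_zero_of_mul hc))

theorem coef_mul_diag {g h : SpV n F} {k : ℤ} (hk : 0 < k)
    (hg : (∀ a, coef g a a = 1) ∧ ∀ a b, a ≠ b → coef g a b ≠ 0 → hs b + k ≤ hs a)
    (hh : (∀ a, coef h a a = 1) ∧ ∀ a b, a ≠ b → coef h a b ≠ 0 → hs b + k ≤ hs a) :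
    (∀ a, coef (g * h) a a = 1) ∧ ∀ a b, a ≠ b → coef (g * h) a b ≠ 0 → hs b + k ≤ hs a := by
  constructor
  · intro a
    rw [coef_mul, Finset.sum_eq_single a]
    · rw [hg.1, hh.1, one_mul]
    · intro c _ hc
      by_contra hne
      have h1 := hg.2 a c (Ne.symm hc) (left_ne_zero_of_mul hne)
      have h2 := hh.2 c a hc (right_ne_zero_of_mul hne)
      omega
    · intro h; exact absurd (Finset.mem_univ _) h
  · intro a b hab hne
    rw [coef_mul] at hne
    obtain ⟨c, _, hc⟩ := Finset.exists_ne_zero_of_sum_ne_zero hne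
    by_cases h1 : c = a
    · subst h1
      exact hh.2 c b hab (right_ne_zero_of_mul hc)
    by_cases h2 : c = b
    · subst h2
      exact hg.2 a c hab (left_ne_zero_of_mul hc)
    · have h3 := hg.2 a c (Ne.symm h1) (left_ne_zero_of_mul hc)
      have h4 := hh.2 c b h2 (right_ne_zero_of_mul hc)
      omega

variable (n F) in
/-- unitriangular of level `k` -/
def Wk (k : ℤ) (hk : 0 < k) : Submonoid (SpV n F) where
  carrier := {g | (∀ a, coef g a a = 1) ∧ ∀ a b, a ≠ b → coef g a b ≠ 0 → hs b + k ≤ hs a}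
  one_mem' := by
    constructor
    · intro a; rw [coef_one, if_pos rfl]
    · intro a b hab h
      rw [coef_one, if_neg hab] at h
      exact absurd rfl h
  mul_mem' := fun hg hh => coef_mul_diag hk hg hh

variable (F) in
/-- the submonoid of a positive root -/
def Wr' (r : Root n) (hr : 0 < r.ht) : Submonoid (SpV n F) where
  carrier := {g | g ∈ Wk n F r.ht hr ∧ ∀ a b, r.1 = s(a, b) → coef g a (ng b) = 0}
  one_mem' := by
    refine ⟨Submonoid.one_mem _, fun a b h => ?_⟩
    rw [coef_one, if_neg]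
    rintro rfl
    have := r.2
    rw [h, isRoot_iff] at this
    simp at this
  mul_mem' := by
    rintro g h ⟨hg, hg'⟩ ⟨hh, hh'⟩
    refine ⟨Submonoid.mul_mem _ hg hh, fun a b hab => ?_⟩
    have hht : r.ht = hs a + hs b := by rw [Root.ht, hab]; rfl
    have hne : a ≠ ng b := by
      rintro rfl
      have := r.2
      rw [hab, isRoot_iff] at this
      simp at this
    rw [coef_mul]
    by_contra hne'
    obtain ⟨c, _, hc⟩ := Finset.exists_ne_zero_of_sum_ne_zero hne'
    by_cases h1 : c = a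
    · subst h1
      exact right_ne_zero_of_mul hc (hh' c b hab)
    by_cases h2 : c = ng b
    · subst h2
      exact left_ne_zero_of_mul hc (hg' a b hab)
    · have h3 := hg.2 a c (Ne.symm h1) (left_ne_zero_of_mul hc)
      have h4 := hh.2 c (ng b) h2 (right_ne_zero_of_mul hc)
      rw [hs_ng] at h4
      omega

variable (F) in
/-- the submonoid of a root -/
def Wr (r : Root n) : Submonoid (SpV n F) := if hr : 0 < r.ht then Wr' F r hr else ⊤

theorem dd_eb (b c : Sg n) : dd ((eb b : VV n F) c.1) (bs c.2) = if b = ng c then sg c else 0 := by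
  obtain ⟨i, s⟩ := b
  obtain ⟨j, t⟩ := c
  simp only [eb, ng_mk, sg]
  by_cases h : i = j
  · subst h
    rw [Pi.single_eq_same]
    cases s <;> cases t <;> simp [dd]
  · rw [Pi.single_eq_of_ne (Ne.symm h), dd_zero_left]
    simp [h]

theorem coef_Xel_ne {c d : Sg n} (h : c.1 ≠ d.1) (t : F) (a b : Sg n) :
    coef ((cpre n F).Xel c d t) a b = (if a = b then 1 else 0) + (if a = d then t * (if b = ng c then sg c else 0) else 0)
      + (if a = c then t * (if b = ng d then sg d else 0) else 0) := by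
  rw [Pre.Xel_ne _ h, coef, cpre_E h, cE_apply, ← co_eb (F := F) a b, ← dd_eb, ← dd_eb]
  simp only [co, fE, Pi.add_apply]
  congr 1
  · congr 1
    obtain ⟨i, s⟩ := a
    obtain ⟨j, u⟩ := d
    simp only
    by_cases hij : i = j
    · subst hij
      rw [if_pos rfl, Pi.smul_apply, Pi.smul_apply, bs_coord]
      by_cases hsu : s = u
      · subst hsu; simp; ring
      · simp [hsu]
    · rw [if_neg hij, if_neg (show ¬ ((i, s) : Sg n) = (j, u) by simp [hij])]
      rfl
  · obtain ⟨i, s⟩ := a
    obtain ⟨j, u⟩ := c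
    simp only
    by_cases hij : i = j
    · subst hij
      rw [if_pos rfl, Pi.smul_apply, bs_coord, dd_smul_right]
      by_cases hsu : s = u
      · subst hsu; simp
      · simp [hsu]
    · rw [if_neg hij, if_neg (show ¬ ((i, s) : Sg n) = (j, u) by simp [hij])]
      rfl

theorem coef_Xel_self (c : Sg n) (t : F) (a b : Sg n) :
    coef ((cpre n F).Xel c c t) a b = (if a = b then 1 else 0) + (if a = c then t * (if b = ng c then sg c else 0) else 0) := by
  rw [Pre.Xel_self, coef, cpre_L, ← co_eb (F := F) a b, ← dd_eb]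
  simp only [co, cL_apply]
  obtain ⟨i, s⟩ := a
  obtain ⟨j, u⟩ := c
  simp only
  by_cases hij : i = j
  · subst hij
    rw [if_pos rfl, ac_tv, Pi.add_apply, Pi.smul_apply, bs_coord]
    by_cases hsu : s = u
    · subst hsu; simp
    · simp [hsu]
  · rw [if_neg hij, if_neg (show ¬ ((i, s) : Sg n) = (j, u) by simp [hij]), add_zero]

theorem coef_Xel_diag {c d : Sg n} (h : d ≠ ng c) (t : F) (a : Sg n) : coef ((cpre n F).Xel c d t) a a = 1 := by
  by_cases hcd : c = d
  · subst hcd
    rw [coef_Xel_self, if_pos rfl]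
    split_ifs with h1 h2
    · exact absurd (h1.symm.trans h2) h
    · simp
    · simp
  · have hne : c.1 ≠ d.1 := by
      intro e
      rcases eq_or_ng e with h1 | h1
      · exact hcd h1.symm
      · exact h h1
    rw [coef_Xel_ne hne, if_pos rfl]
    have h1 : (if a = d then t * (if a = ng c then sg c else 0) else 0) = (0 : F) := by
      split_ifs with h1 h2
      · exact absurd (h1.symm.trans h2) h
      · simp
      · rfl
    have h2 : (if a = c then t * (if a = ng d then sg d else 0) else 0) = (0 : F) := by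
      split_ifs with h1 h2
      · exact absurd (by rw [← h1, h2, ng_ng]) h
      · simp
      · rfl
    rw [h1, h2, add_zero, add_zero]

theorem coef_Xel_off {c d : Sg n} (h : d ≠ ng c) (t : F) {a b : Sg n} (hab : a ≠ b)
    (hne : coef ((cpre n F).Xel c d t) a b ≠ 0) : (a = d ∧ b = ng c) ∨ (a = c ∧ b = ng d) := by
  by_cases hcd : c = d
  · subst hcd
    rw [coef_Xel_self, if_neg hab] at hne
    split_ifs at hne with h1 h2
    · exact Or.inl ⟨h1, h2⟩
    · simp at hne
    · simp at hne
  · have hne' : c.1 ≠ d.1 := by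
      intro e
      rcases eq_or_ng e with h1 | h1
      · exact hcd h1.symm
      · exact h h1
    rw [coef_Xel_ne hne', if_neg hab] at hne
    by_contra hcon
    rw [not_or, not_and, not_and] at hcon
    apply hne
    have h1 : (if a = d then t * (if b = ng c then sg c else 0) else 0) = (0 : F) := by
      split_ifs with h1 h2
      · exact absurd h2 (hcon.1 h1)
      · simp
      · rfl
    have h2 : (if a = c then t * (if b = ng d then sg d else 0) else 0) = (0 : F) := by
      split_ifs with h1 h2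
      · exact absurd h2 (hcon.2 h1)
      · simp
      · rfl
    rw [h1, h2, add_zero, add_zero]

theorem coef_Xel_main {c d : Sg n} (h : d ≠ ng c) (t : F) : coef ((cpre n F).Xel c d t) c (ng d) = t * sg d := by
  have hne0 : c ≠ ng d := by
    rintro rfl
    simp at h
  by_cases hcd : c = d
  · subst hcd
    rw [coef_Xel_self, if_neg hne0, if_pos rfl, if_pos rfl, zero_add]
  · have hne' : c.1 ≠ d.1 := by
      intro e
      rcases eq_or_ng e with h1 | h1
      · exact hcd h1.symm
      · exact h h1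
    rw [coef_Xel_ne hne', if_neg hne0, if_neg hcd, if_pos rfl, if_pos rfl, zero_add, zero_add]

end Conc

end Cfsg.Agent.H111
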