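import Cfsg.Agent.H111.SpQuo
import Cfsg.Agent.H109.SL2b
import Cfsg.Agent.H110.AltPres
import Cfsg.Agent.S0246

/-!
# Presentations of `Sp_2n(F)` and `PSp_2n(F)` (helper111, cluster S2284-S2297)
-/

set_option autoImplicit false

universe u

namespace Cfsg.Agent.H111.SpFinal

open Equiv
open Matrix (SpecialLinearGroup)

variable {F : Type u} [Field F] [Fintype F]

theorem hasPres_SL2 : HasPres (SpecialLinearGroup (Fin 2) F) 3 8 := by
  by_cases h2 : (2 : F) = 0
  · exact (Cfsg.Agent.H109.sl2_even h2).mono (by norm_num)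
  · exact Cfsg.Agent.H109.sl2_odd h2

theorem assemble {n k m r a b : ℕ} (hP : HasPres (Perm (Fin (n + 2))) k m)
    (hq : Quo (Pre.PP n F) (SpV n F) r) (hb : k + 4 = b) (ha : m + 8 + r ≤ a) :
    HasPres (Matrix.symplecticGroup (Fin (n + 2)) F) b a := by
  subst hb
  have h1 := (hasPres_SL2 (F := F)).coprod (HasPres.free 1)
  have h2 := hP.coprod h1
  exact ((h2.quo hq).mono (by omega)).of_mulEquiv spEquiv

theorem sp_two : HasPres (Matrix.symplecticGroup (Fin 2) F) 6 32 :=
  assemble (n := 0) (Cfsg.Agent.H110.AltPres.hasPres_perm_two 2) (Pre.quo_zero hasPres_SL2) (by norm_num) (by norm_num)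

theorem sp_three : HasPres (Matrix.symplecticGroup (Fin 3) F) 7 44 :=
  assemble (n := 1) (Cfsg.Agent.H110.AltPres.hasPres_perm 3) (Pre.quo_one hasPres_SL2) (by norm_num) (by norm_num)

theorem sp_four {n : ℕ} (hn : 4 ≤ n) : HasPres (Matrix.symplecticGroup (Fin n) F) 7 45 := by
  obtain ⟨n, rfl⟩ := Nat.exists_eq_add_of_le' hn
  exact assemble (n := n + 2) (Cfsg.Agent.H110.AltPres.hasPres_perm (n + 2 + 2)) (Pre.quo_two hasPres_SL2 n)
    (by norm_num) (by norm_num)

theorem psp {n k m : ℕ} (hn : 1 ≤ n) (h : HasPres (Matrix.symplecticGroup (Fin n) F) k m) :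
    HasPres (Cfsg.PSp n F) k (m + 1) := by
  apply h.centerQuo
  have hc := Cfsg.Agent.S0246.result (F := F) rfl n hn
  have h2 : Nat.gcd 2 (Fintype.card F - 1) = 1 ∨ Nat.gcd 2 (Fintype.card F - 1) = 2 :=
    (Nat.dvd_prime Nat.prime_two).1 (Nat.gcd_dvd_left 2 _)
  rcases h2 with h2 | h2
  · rw [h2] at hc
    have : Subsingleton (Subgroup.center (Matrix.symplecticGroup (Fin n) F)) :=
      (Nat.card_eq_one_iff_unique.1 hc).1
    exact isCyclic_of_subsingleton
  · rw [h2] at hc
    have : Fact (Nat.Prime 2) := ⟨Nat.prime_two⟩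
    exact isCyclic_of_prime_card hc

end Cfsg.Agent.H111.SpFinal
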