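import Cfsg.Agent.H111.SpHyp

/-!
# Type `C`: injectivity, conclusion (helper111, cluster S2284-S2297)
-/

set_option autoImplicit false

namespace Cfsg.Agent.H111

open Equiv
open Matrix (SpecialLinearGroup)
open Cfsg.Agent.ChevalleyStructure.SteinbergBruhat

namespace Pre

variable {n : ℕ} {F : Type*} [Field F] {Q : Type*} [Group Q]

theorem coef_hd_ne {i : Fin (n + 2)} {u : Fˣ} {a b : Sg n} (h : coef ((cpre n F).L i (hd u)) a b ≠ 0) : a = b := by
  by_contra hab
  apply h
  rw [coef, cpre_L]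
  obtain ⟨j, s⟩ := a
  obtain ⟨k, t⟩ := b
  simp only [co, cL_apply, eb]
  by_cases hjk : j = k
  · subst hjk
    rw [Pi.single_eq_same]
    have hst : s ≠ t := fun e => hab (by rw [e])
    cases s <;> cases t <;> simp at hst ⊢ <;> split_ifs <;> simp
  · rw [Pi.single_eq_of_ne hjk]
    split_ifs <;> simp

/-- the diagonal matrices -/
def cD (a : Fin (n + 2) → Fˣ) : VV n F ≃ₗ[F] VV n F where
  toFun x i := ac (hd (a i)) (x i)
  invFun x i := ac (hd (a i))⁻¹ (x i)
  left_inv x := by funext j; simp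
  right_inv x := by funext j; simp
  map_add' x y := by funext j; simp [ac_add]
  map_smul' c x := by funext j; simp [ac_smul]

theorem cD_apply (a : Fin (n + 2) → Fˣ) (x : VV n F) (i : Fin (n + 2)) : cD a x i = ac (hd (a i)) (x i) := rfl

theorem om_cD (a : Fin (n + 2) → Fˣ) (x y : VV n F) : om (cD a x) (cD a y) = om x y := by
  simp only [om, cD_apply, dd_ac]

/-- the diagonal matrices -/
def cDh : (Fin (n + 2) → Fˣ) →* SpV n F where
  toFun a := ⟨cD a, om_cD a⟩
  map_one' := by
    apply Subtype.ext; ext1 x; funext i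
    change cD 1 x i = x i
    rw [cD_apply, Pi.one_apply, hd_one, ac_one]
  map_mul' a b := by
    apply Subtype.ext; ext1 x; funext i
    change cD (a * b) x i = cD a (cD b x) i
    rw [cD_apply, cD_apply, cD_apply, Pi.mul_apply, hd_mul, ac_mul]

theorem cDh_single (i : Fin (n + 2)) (u : Fˣ) : (cDh (Pi.mulSingle i u) : SpV n F) = (cpre n F).L i (hd u) := by
  apply Subtype.ext
  rw [cpre_L]
  ext1 x; funext j
  change cD _ x j = _
  rw [cD_apply, cL_apply]
  by_cases h : j = i
  · subst h; simp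
  · rw [if_neg h, Pi.mulSingle_eq_of_ne h, hd_one, ac_one]

theorem coef_cDh (a : Fin (n + 2) → Fˣ) (i : Fin (n + 2)) : coef (cDh a : SpV n F) (i, true) (i, true) = a i := by
  rw [coef]
  change co _ (cD a _) = _
  simp [co, cD_apply, eb]

namespace Sys2

variable {A : Pre n F Q} {ζ : F} (H : A.Sys2 ζ)
include H

theorem tor_comm : Pairwise fun i j => ∀ x y : Fˣ, Commute (((A.L i).comp hdHom) x) (((A.L j).comp hdHom) y) :=
  fun _ _ hij x y => H.L_comm hij (hd x) (hd y)

/-- the torus -/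
noncomputable def tor : (Fin (n + 2) → Fˣ) →* Q :=
  MonoidHom.noncommPiCoprod (fun i => (A.L i).comp hdHom) H.tor_comm

theorem tor_single (i : Fin (n + 2)) (u : Fˣ) : H.tor (Pi.mulSingle i u) = A.L i (hd u) :=
  MonoidHom.noncommPiCoprod_mulSingle (fun i => (A.L i).comp hdHom) (hcomm := H.tor_comm) i u

theorem exists_tor {h : Q} (hh : h ∈ A.rd.H) : ∃ a, h = H.tor a := by
  refine A.H_induction (C := fun h => ∃ a, h = H.tor a) ?_ ?_ ?_ hh
  · intro i u
    exact ⟨_, (H.tor_single i u).symm⟩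
  · exact ⟨1, (map_one _).symm⟩
  · rintro _ _ ⟨a, rfl⟩ ⟨b, rfl⟩
    exact ⟨a * b, (map_mul _ _ _).symm⟩

theorem map_tor (θ : Q →* SpV n F) (hθ : A.map θ = cpre n F) (a : Fin (n + 2) → Fˣ) : θ (H.tor a) = cDh a := by
  have : θ.comp H.tor = cDh := by
    apply MonoidHom.pi_ext
    intro i u
    rw [MonoidHom.comp_apply, H.tor_single, cDh_single, ← hθ, map_L]
  exact DFunLike.congr_fun this a

theorem hyp (hgen : Subgroup.closure (Set.range A.S ∪ Set.range A.l ∪ {A.y}) = ⊤)
    (θ : Q →* SpV n F) (hθ : A.map θ = cpre n F) :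
    Inj.Hyp A.rd Root.ht θ (W0 n F) (Wk n F 1 one_pos) (Wr F) where
  refl_refl := Root.refl_refl
  refl_sim := refl_simR
  refl_pos := Root.refl_pos
  refl_neg := Root.refl_neg
  pos_iff _ := Iff.rfl
  ht_sim := ht_simR
  ht_neg := Root.ht_neg
  ht_ne := Root.ht_ne
  conjH h hh := Root.ind fun a b hab x hx => by
    rw [H.X_mkR] at hx ⊢
    exact H.conj_H hh a b x hx
  conjn i := Root.ind fun a b hab x hx => by
    rw [H.X_mkR] at hx
    obtain ⟨t, rfl⟩ := hx
    change _ ∈ A.rd.X ((mkR a b hab).refl i)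
    rw [Root.refl, im_mkR, H.X_mkR]
    exact H.conj_n i a b t
  conjnH i h hh := H.conj_nH i hh
  nn := H.n_mul_n
  nmem := H.n_mem
  Xneg := H.X_neg
  comm := H.comm
  gen := H.gen hgen
  W0pos := Root.ind fun a b hab hp x hx => by
    rw [H.X_mkR] at hx
    obtain ⟨t, rfl⟩ := hx
    rw [← map_Xel, hθ]
    intro c d hne
    by_cases hcd : c = d
    · rw [hcd]
    · rw [ht_mkR] at hp
      rcases coef_Xel_off hab t hcd hne with ⟨rfl, rfl⟩ | ⟨rfl, rfl⟩
      · rw [hs_ng]; omega
      · rw [hs_ng]; omega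
  W0H h hh := by
    refine A.H_induction (C := fun h => θ h ∈ W0 n F) ?_ ?_ ?_ hh
    · intro i u
      rw [← map_L, hθ]
      intro c d hne
      rw [coef_hd_ne hne]
    · rw [map_one]; exact Submonoid.one_mem _
    · intro x y hx hy
      rw [map_mul]; exact Submonoid.mul_mem _ hx hy
  W0neg := Root.ind fun a b hab hp => by
    rw [ht_mkR] at hp
    refine ⟨A.Xel a b 1, ?_, ?_⟩
    · rw [H.X_mkR]; exact ⟨1, rfl⟩
    · rw [← map_Xel, hθ]
      intro h
      have := h a (ng b) (by rw [coef_Xel_main hab, one_mul]; exact sg_ne _)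
      rw [hs_ng] at this
      omega
  Wpos r s hr hrs hne x hx := by
    obtain ⟨c, d, hcd, t, rfl, rfl⟩ := H.mem_X _ _ hx
    rw [← map_Xel, hθ, Wr, dif_pos hr]
    rw [ht_mkR] at hrs
    refine ⟨⟨fun a => coef_Xel_diag hcd t a, ?_⟩, ?_⟩
    · intro a b hab hne'
      rcases coef_Xel_off hcd t hab hne' with ⟨rfl, rfl⟩ | ⟨rfl, rfl⟩
      · rw [hs_ng]; omega
      · rw [hs_ng]; omega
    · intro a b hab
      by_contra hne'
      have hr' := r.2
      rw [hab, isRoot_iff] at hr'
      have hane : a ≠ ng b := by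
        rintro rfl
        simp at hr'
      apply hne
      rcases coef_Xel_off hcd t hane hne' with ⟨rfl, h2⟩ | ⟨rfl, h2⟩
      · have h3 := ng_inj h2
        subst h3
        apply Subtype.ext
        rw [hab]
        exact Sym2.eq_swap
      · have h3 := ng_inj h2
        subst h3
        apply Subtype.ext
        rw [hab]; rfl
  Wr r hr x hx hxW := by
    obtain ⟨c, d, hcd, t, rfl, rfl⟩ := H.mem_X _ _ hx
    rw [← map_Xel, hθ, Wr, dif_pos hr] at hxW
    have := hxW.2 c d rfl
    rw [coef_Xel_main hcd] at this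
    have ht0 : t = 0 := (mul_eq_zero.1 this).resolve_right (sg_ne _)
    rw [ht0, H.Xel_zero]
  W1pos := Root.ind fun a b hab hp x hx => by
    rw [H.X_mkR] at hx
    obtain ⟨t, rfl⟩ := hx
    rw [← map_Xel, hθ]
    rw [ht_mkR] at hp
    refine ⟨fun c => coef_Xel_diag hab t c, fun c d hcd hne => ?_⟩
    rcases coef_Xel_off hab t hcd hne with ⟨rfl, rfl⟩ | ⟨rfl, rfl⟩
    · rw [hs_ng]; omega
    · rw [hs_ng]; omega
  W1H h hh hW := by
    obtain ⟨a, rfl⟩ := H.exists_tor hh
    rw [H.map_tor θ hθ] at hW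
    have ha : a = 1 := by
      funext i
      have := hW.1 (i, true)
      rw [coef_cDh] at this
      exact Units.ext this
    rw [ha, map_one]

theorem injective (hgen : Subgroup.closure (Set.range A.S ∪ Set.range A.l ∪ {A.y}) = ⊤)
    (θ : Q →* SpV n F) (hθ : A.map θ = cpre n F) : Function.Injective θ :=
  (H.hyp hgen θ hθ).injective

end Sys2

end Pre

end Cfsg.Agent.H111
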