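import Cfsg.Agent.H111.SpPres

/-!
# Presentations of the symplectic groups: conclusion (helper111, cluster S2284-S2297)
-/

set_option autoImplicit false

universe u

namespace Cfsg.Agent.H111

open Equiv
open Matrix (SpecialLinearGroup)

namespace Pre

variable {n : ℕ} {F : Type u} [Field F] {Q : Type u} [Group Q]

namespace Sys2

variable {A : Pre n F Q} {ζ : Fˣ} (H : A.Sys2 (ζ : F))
include H

theorem Y_eq {π : Perm (Fin (n + 2))} {g h : SpecialLinearGroup (Fin 2) F} {i j : Fin (n + 2)} {v w : Fin 2 → F}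
    (hi : π 0 = i) (hj : π 1 = j) (hv : ac g ve = v) (hw : ac h ve = w) : A.Y π g h = A.E i j v w := by
  rw [← H.toSys1.E_eq, hi, hj, hv, hw]

theorem base_eq_one (g : Fin 3 → SpecialLinearGroup (Fin 2) F) : ∀ r ∈ A.base g ζ, r = 1 := by
  have hadd : ∀ c : F, c ≠ 0 →
      A.y * A.Y 1 1 (gv (c • vf)) * (A.L 0 (tv ve (-c)) * A.Y 1 1 (gv (ve + c • vf)))⁻¹ = 1 := by
    intro c hc
    have hne : (ve + c • vf : Fin 2 → F) ≠ 0 := fun h => by simpa using congrFun h 0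
    rw [mul_inv_eq_one, H.toSys1.y_eq,
      H.Y_eq (π := 1) (i := 0) (j := 1) rfl rfl (ac_one _) (gv_ve (smul_ne_zero hc vf_ne)),
      H.Y_eq (π := 1) (i := 0) (j := 1) rfl rfl (ac_one _) (gv_ve hne), H.add (by simp), dd_smul_left, dd_vf_ve,
      mul_neg, mul_one]
  have hL : ∀ x y, cw (A.L 0 x) (A.L 1 y) = 1 := fun x y => cw_eq_one.2 (H.comL x y)
  simp only [base, List.mem_cons, List.not_mem_nil, or_false, forall_eq_or_imp, forall_eq]
  refine ⟨hL _ _, hL _ _, hL _ _, hL _ _, hL _ _, hL _ _, hL _ _, hL _ _, hL _ _, cw_eq_one.2 H.yS01,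
    cw_eq_one.2 (H.yh ζ), cw_eq_one.2 (H.yt 1), cw_eq_one.2 (H.yt _), hadd 1 one_ne_zero, hadd _ (Units.ne_zero ζ), ?_⟩
  rw [mul_inv_eq_one, H.sw, H.Y_eq (π := 1) (i := 0) (j := 1) rfl rfl (ac_one _) (gv_ve vf_ne),
      H.Y_eq (π := 1) (i := 0) (j := 1) rfl rfl (gv_ve vf_ne) (gv_ve (neg_ne_zero.2 ve_ne))]

theorem ext3_eq_one (g : Fin 3 → SpecialLinearGroup (Fin 2) F) {a b c d : Perm (Fin (n + 2))} {j : Fin (n + 2)}
    {π π' : Perm (Fin (n + 2))} (ha : a 0 = 0 ∧ a 1 = 1) (hb : b 0 = 0 ∧ b 1 = 1) (hc : c 0 = 0) (hd' : d 0 = 0)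
    (hj0 : j ≠ 0) (hj1 : j ≠ 1) (p0 : π 0 = 0) (p1 : π 1 = j) (q0 : π' 0 = 1) (q1 : π' 1 = j) :
    ∀ r ∈ A.ext3 g a b c d j π π', r = 1 := by
  have h01 : (0 : Fin (n + 2)) ≠ 1 := by simp
  simp only [ext3, List.mem_cons, List.not_mem_nil, or_false, forall_eq_or_imp, forall_eq]
  refine ⟨cw_eq_one.2 (H.comS c hc _), cw_eq_one.2 (H.comS c hc _), cw_eq_one.2 (H.comS c hc _),
    cw_eq_one.2 (H.comS d hd' _), cw_eq_one.2 (H.comS d hd' _), cw_eq_one.2 (H.comS d hd' _),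
    cw_eq_one.2 (H.yS a ha.1 ha.2), cw_eq_one.2 (H.yS b hb.1 hb.2),
    cw_eq_one.2 (H.yL j hj0 hj1 _), cw_eq_one.2 (H.yL j hj0 hj1 _), cw_eq_one.2 (H.yL j hj0 hj1 _), ?_, ?_⟩
  · rw [cw_eq_one, H.toSys1.y_eq, H.Y_eq p0 p1 (ac_one _) (ac_one _), Commute, SemiconjBy,
      ← mul_inv_eq_iff_eq_mul, H.comm3 h01 hj0.symm hj1.symm, dd_self, zero_smul, Sys1.E_zero_left, mul_one]
  · rw [mul_inv_eq_one, H.toSys1.y_eq, H.Y_eq p0 p1 (gv_ve vf_ne) (ac_one _),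
      H.Y_eq q0 q1 (gv_ve (neg_ne_zero.2 ve_ne)) (ac_one _), H.comm3 h01 hj0.symm hj1.symm, dd_vf_ve,
      neg_smul, one_smul]

theorem ext4_eq_one {j k : Fin (n + 2)} (hj0 : j ≠ 0) (hj1 : j ≠ 1) (hk0 : k ≠ 0) (hk1 : k ≠ 1) (hjk : j ≠ k)
    {π : Perm (Fin (n + 2))} (p0 : π 0 = j) (p1 : π 1 = k) : ∀ r ∈ A.ext4 π, r = 1 := by
  have h01 : (0 : Fin (n + 2)) ≠ 1 := by simp
  simp only [ext4, List.mem_cons, List.not_mem_nil, or_false, forall_eq]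
  rw [cw_eq_one, H.toSys1.y_eq, H.Y_eq p0 p1 (ac_one _) (ac_one _)]
  exact H.comm4 h01 hj0.symm hj1.symm hk0.symm hk1.symm hjk _ _ _ _

end Sys2

/-- from the relators to the relations, without the third plane -/
theorem rels_of_base {A : Pre n F Q} {g : Fin 3 → SpecialLinearGroup (Fin 2) F} {ζ : Fˣ}
    (hg : Subgroup.closure (Set.range g) = ⊤) (hζ : ∀ u : Fˣ, u ∈ Subgroup.zpowers ζ)
    (h : ∀ r ∈ A.base g ζ, r = 1) {a b c d : Perm (Fin (n + 2))}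
    (gen2 : ∀ π : Perm (Fin (n + 2)), π 0 = 0 → π 1 = 1 → π ∈ Subgroup.closure {a, b})
    (gen1 : ∀ π : Perm (Fin (n + 2)), π 0 = 0 → π ∈ Subgroup.closure {c, d})
    (ra : ∀ i, Commute (A.S c) (A.l (g i)) ∧ Commute (A.S d) (A.l (g i)))
    (rc1 : Commute (A.S a) A.y ∧ Commute (A.S b) A.y)
    (rc3 : ∀ j : Fin (n + 2), j ≠ 0 → j ≠ 1 → ∃ j' : Fin (n + 2), j' ≠ 0 ∧ j' ≠ 1 ∧ ∀ i, Commute (A.L j' (g i)) A.y)
    (rc8 : ∀ j : Fin (n + 2), j ≠ 0 → j ≠ 1 →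
      ∃ π : Perm (Fin (n + 2)), π 0 = 0 ∧ π 1 ≠ 0 ∧ π 1 ≠ 1 ∧ Commute A.y (A.Y π 1 1))
    (rc9 : ∀ j : Fin (n + 2), j ≠ 0 → j ≠ 1 →
      ∃ π π' : Perm (Fin (n + 2)), π 0 = 0 ∧ π 1 ≠ 0 ∧ π 1 ≠ 1 ∧ π' 0 = 1 ∧ π' 1 = π 1 ∧
        A.y * A.Y π (gv vf) 1 * A.y⁻¹ = A.Y π (gv vf) 1 * A.Y π' (gv (-ve)) 1)
    (rc10 : ∀ j k : Fin (n + 2), j ≠ 0 → j ≠ 1 → k ≠ 0 → k ≠ 1 → j ≠ k →
      ∃ π : Perm (Fin (n + 2)), π 0 ≠ 0 ∧ π 0 ≠ 1 ∧ π 1 ≠ 0 ∧ π 1 ≠ 1 ∧ Commute A.y (A.Y π 1 1)) :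
    A.Rels g a b c d ζ := by
  simp only [base, List.mem_cons, List.not_mem_nil, or_false, forall_eq_or_imp, forall_eq, cw_eq_one,
    mul_inv_eq_one] at h
  obtain ⟨b1, b2, b3, b4, b5, b6, b7, b8, b9, h2, h4, h5, h6, h7, h8, h9⟩ := h
  refine ⟨hg, gen2, gen1, hζ, ra, ?_, rc1, h2, rc3, h4, ⟨h5, h6⟩, ⟨h7, h8⟩, rc8, rc9, rc10, h9⟩
  intro i j
  fin_cases i <;> fin_cases j <;> assumption

theorem sys2_of_ext3 {A : Pre n F Q} {g : Fin 3 → SpecialLinearGroup (Fin 2) F} {ζ : Fˣ}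
    (hg : Subgroup.closure (Set.range g) = ⊤) (hζ : ∀ u : Fˣ, u ∈ Subgroup.zpowers ζ)
    (h : ∀ r ∈ A.base g ζ, r = 1) {a b c d : Perm (Fin (n + 2))} {j : Fin (n + 2)} {π π' : Perm (Fin (n + 2))}
    (gen2 : ∀ π : Perm (Fin (n + 2)), π 0 = 0 → π 1 = 1 → π ∈ Subgroup.closure {a, b})
    (gen1 : ∀ π : Perm (Fin (n + 2)), π 0 = 0 → π ∈ Subgroup.closure {c, d})
    (hj0 : j ≠ 0) (hj1 : j ≠ 1) (p0 : π 0 = 0) (p1 : π 1 = j) (q0 : π' 0 = 1) (q1 : π' 1 = j)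
    (h' : ∀ r ∈ A.ext3 g a b c d j π π', r = 1)
    (rc10 : ∀ j k : Fin (n + 2), j ≠ 0 → j ≠ 1 → k ≠ 0 → k ≠ 1 → j ≠ k →
      ∃ π : Perm (Fin (n + 2)), π 0 ≠ 0 ∧ π 0 ≠ 1 ∧ π 1 ≠ 0 ∧ π 1 ≠ 1 ∧ Commute A.y (A.Y π 1 1)) :
    A.Sys2 (ζ : F) := by
  simp only [ext3, List.mem_cons, List.not_mem_nil, or_false, forall_eq_or_imp, forall_eq, cw_eq_one,
    mul_inv_eq_one] at h'
  obtain ⟨c0, c1, c2, d0, d1, d2, ya, yb, l0, l1, l2, h8, h9⟩ := h'
  refine (rels_of_base hg hζ h gen2 gen1 ?_ ⟨ya, yb⟩ ?_ ?_ ?_ rc10).sys2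
  · intro i
    fin_cases i
    · exact ⟨c0, d0⟩
    · exact ⟨c1, d1⟩
    · exact ⟨c2, d2⟩
  · intro _ _ _
    refine ⟨j, hj0, hj1, fun i => ?_⟩
    fin_cases i
    · exact l0
    · exact l1
    · exact l2
  · intro _ _ _
    exact ⟨π, p0, by rw [p1]; exact hj0, by rw [p1]; exact hj1, h8⟩
  · intro _ _ _
    exact ⟨π, π', p0, by rw [p1]; exact hj0, by rw [p1]; exact hj1, q0, by rw [q1, p1], h9⟩

/-- Two planes. -/
theorem quo_zero [Finite F] {r : ℕ} (hSL : HasPres (SpecialLinearGroup (Fin 2) F) 3 r) :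
    Quo (PP 0 F) (SpV 0 F) 16 := by
  obtain ⟨g, hg⟩ := hSL.exists_gen
  obtain ⟨ζ, hζ⟩ := IsCyclic.exists_generator (α := Fˣ)
  refine quo_of 16 (fun Q _ A => A.base g ζ) (fun Q Q' _ _ A f => base_map g ζ A f) (fun Q _ A => rfl) ?_ ?_
  · intro Q _ A h
    have hnone : ∀ j : Fin (0 + 2), j ≠ 0 → j ≠ 1 → False := by
      intro j h0 h1
      fin_cases j
      · exact h0 rfl
      · exact h1 rfl
    have hone : ∀ π : Perm (Fin (0 + 2)), π 0 = 0 → π = 1 := by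
      intro π h0
      ext i
      fin_cases i
      · simpa using congrArg Fin.val h0
      · have h1 : π 1 ≠ 0 := fun e => by
          have := π.injective (e.trans h0.symm)
          simp at this
        by_contra hne
        exact hnone (π 1) h1 (fun e => hne (by rw [Fin.mk_one]; exact congrArg Fin.val e))
    refine ⟨ζ, (rels_of_base (a := 1) (b := 1) (c := 1) (d := 1) hg hζ h ?_ ?_ ?_ ?_ ?_ ?_ ?_ ?_).sys2⟩
    · intro π h0 _
      rw [hone π h0]; exact Subgroup.one_mem _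
    · intro π h0
      rw [hone π h0]; exact Subgroup.one_mem _
    · intro i; simp
    · simp
    · intro j h0 h1; exact (hnone j h0 h1).elim
    · intro j h0 h1; exact (hnone j h0 h1).elim
    · intro j h0 h1; exact (hnone j h0 h1).elim
    · intro j _ h0 h1; exact (hnone j h0 h1).elim
  · exact (cpre_sys2 (Units.ne_zero ζ) (square_class hζ)).base_eq_one g

/-- Three planes. -/
theorem quo_one [Finite F] {r : ℕ} (hSL : HasPres (SpecialLinearGroup (Fin 2) F) 3 r) :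
    Quo (PP 1 F) (SpV 1 F) 29 := by
  obtain ⟨g, hg⟩ := hSL.exists_gen
  obtain ⟨ζ, hζ⟩ := IsCyclic.exists_generator (α := Fˣ)
  obtain ⟨c, d, hcd, hc, hd'⟩ := exists_gen_fix (n := 1) (fun i => i ≠ 0)
  obtain ⟨a, b, hab, ha, hb⟩ := exists_gen_fix (n := 1) (fun i => i ≠ 0 ∧ i ≠ 1)
  obtain ⟨π, p0, p1⟩ := exists_perm2 (n := 1) (i := 0) (j := 2) (by decide)
  obtain ⟨π', q0, q1⟩ := exists_perm2 (n := 1) (i := 1) (j := 2) (by decide)
  refine quo_of 29 (fun Q _ A => A.base g ζ ++ A.ext3 g a b c d 2 π π') ?_ (fun Q _ A => rfl) ?_ ?_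
  · intro Q Q' _ _ A f
    rw [List.map_append, base_map, ext3_map]
  · intro Q _ A h
    refine ⟨ζ, sys2_of_ext3 hg hζ (fun r hr => h r (List.mem_append_left _ hr)) ?_ ?_ (j := 2) (by decide) (by decide)
      p0 p1 q0 q1 (fun r hr => h r (List.mem_append_right _ hr)) ?_⟩
    · intro σ h0 h1
      apply hab
      intro i hi
      rw [not_and_or, not_not, not_not] at hi
      rcases hi with rfl | rfl
      · exact h0
      · exact h1
    · intro σ h0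
      apply hcd
      intro i hi
      rw [not_not] at hi
      rw [hi, h0]
    · intro j k h0 h1 h2 h3 h4
      exfalso
      revert j k
      decide
  · intro r hr
    have H := cpre_sys2 (n := 1) (Units.ne_zero ζ) (square_class hζ)
    rcases List.mem_append.1 hr with hr | hr
    · exact H.base_eq_one g r hr
    · exact H.ext3_eq_one g ⟨ha 0 (by decide), ha 1 (by decide)⟩ ⟨hb 0 (by decide), hb 1 (by decide)⟩
        (hc 0 (by decide)) (hd' 0 (by decide)) (by decide) (by decide) p0 p1 q0 q1 r hr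

/-- At least four planes. -/
theorem quo_two [Finite F] {r : ℕ} (hSL : HasPres (SpecialLinearGroup (Fin 2) F) 3 r) (n : ℕ) :
    Quo (PP (n + 2) F) (SpV (n + 2) F) 30 := by
  obtain ⟨g, hg⟩ := hSL.exists_gen
  obtain ⟨ζ, hζ⟩ := IsCyclic.exists_generator (α := Fˣ)
  obtain ⟨c, d, hcd, hc, hd'⟩ := exists_gen_fix (n := n + 2) (fun i => i ≠ 0)
  obtain ⟨a, b, hab, ha, hb⟩ := exists_gen_fix (n := n + 2) (fun i => i ≠ 0 ∧ i ≠ 1)
  let j2 : Fin (n + 2 + 2) := ⟨2, by omega⟩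
  let j3 : Fin (n + 2 + 2) := ⟨3, by omega⟩
  have h20 : j2 ≠ 0 := fun e => by simpa [j2] using congrArg Fin.val e
  have h21 : j2 ≠ 1 := fun e => by simpa [j2] using congrArg Fin.val e
  have h30 : j3 ≠ 0 := fun e => by simpa [j3] using congrArg Fin.val e
  have h31 : j3 ≠ 1 := fun e => by simpa [j3] using congrArg Fin.val e
  have h23 : j2 ≠ j3 := fun e => by simpa [j2, j3] using congrArg Fin.val e
  obtain ⟨π, p0, p1⟩ := exists_perm2 h20.symm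
  obtain ⟨π', q0, q1⟩ := exists_perm2 h21.symm
  obtain ⟨π'', r0, r1⟩ := exists_perm2 h23
  refine quo_of 30 (fun Q _ A => A.base g ζ ++ A.ext3 g a b c d j2 π π' ++ A.ext4 π'') ?_ (fun Q _ A => rfl) ?_ ?_
  · intro Q Q' _ _ A f
    rw [List.map_append, List.map_append, base_map, ext3_map, ext4_map]
  · intro Q _ A h
    refine ⟨ζ, sys2_of_ext3 hg hζ (fun r hr => h r (List.mem_append_left _ (List.mem_append_left _ hr))) ?_ ?_
      (j := j2) h20 h21 p0 p1 q0 q1 (fun r hr => h r (List.mem_append_left _ (List.mem_append_right _ hr))) ?_⟩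
    · intro σ h0 h1
      apply hab
      intro i hi
      rw [not_and_or, not_not, not_not] at hi
      rcases hi with rfl | rfl
      · exact h0
      · exact h1
    · intro σ h0
      apply hcd
      intro i hi
      rw [not_not] at hi
      rw [hi, h0]
    · intro j k _ _ _ _ _
      refine ⟨π'', by rw [r0]; exact h20, by rw [r0]; exact h21, by rw [r1]; exact h30, by rw [r1]; exact h31, ?_⟩
      have := h (cw A.y (A.Y π'' 1 1)) (List.mem_append_right _ (by simp [ext4]))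
      exact cw_eq_one.1 this
  · intro r hr
    have H := cpre_sys2 (n := n + 2) (Units.ne_zero ζ) (square_class hζ)
    rcases List.mem_append.1 hr with hr | hr
    · rcases List.mem_append.1 hr with hr | hr
      · exact H.base_eq_one g r hr
      · exact H.ext3_eq_one g ⟨ha 0 (by simp), ha 1 (by simp)⟩ ⟨hb 0 (by simp), hb 1 (by simp)⟩
          (hc 0 (by simp)) (hd' 0 (by simp)) h20 h21 p0 p1 q0 q1 r hr
    · exact H.ext4_eq_one h20 h21 h30 h31 h23 r0 r1 r hr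

end Pre

end Cfsg.Agent.H111
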